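import Mathlib
import Cfsg.Agent.S4435
import Cfsg.Agent.S4436
import Cfsg.Agent.S4438
import Cfsg.Agent.Lib.OddChar.Inertia
import Cfsg.Agent.Lib.Char.Gallagher
import Cfsg.Agent.Lib.Char.DegDvd
import Cfsg.Agent.Lib.Core.PSolvable
import Cfsg.Agent.Lib.Core.Series
import Cfsg.Agent.Lib.Blocks.RegPart2
import Cfsg.Agent.Lib.BlockT.NormalP
import Cfsg.Agent.Lib.BlockT.Inflate2

/-!
# Heights in `p`-solvable groups: `χ(1)_p |Z(D)|` divides `|G|_p`
-/

set_option autoImplicit false
set_option linter.unusedSectionVars false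
set_option linter.style.haveILetI false

namespace Cfsg.Agent.Lib.BlockP.PSolvHeight

open Cfsg Module
open Cfsg.Agent.Lib.Char.Basic Cfsg.Agent.Lib.Char.Ortho Cfsg.Agent.Lib.Char.Complete
open Cfsg.Agent.Lib.Char.Conj Cfsg.Agent.Lib.Char.Clifford Cfsg.Agent.Lib.Char.CliffordCorr
open Cfsg.Agent.Lib.Char.Induced Cfsg.Agent.Lib.Char.Linear Cfsg.Agent.Lib.Char.Gallagher
open Cfsg.Agent.Lib.Char.DegDvd Cfsg.Agent.Lib.Char.Degree
open Cfsg.Agent.Lib.Blocks.Local Cfsg.Agent.Lib.Blocks.Central
open Cfsg.Agent.Lib.BlockT.Inflate Cfsg.Agent.Lib.BlockT.Inflate2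
open Cfsg.Agent.Lib.BlockP.Defect
open Cfsg.Agent.Lib.Core.Basic Cfsg.Agent.Lib.Core.Series Cfsg.Agent.Lib.Core.PSolvable

universe u

section Deg

variable {X : Type u} [Group X] [Fintype X]

/-- A normal Hall subgroup with abelian quotient: constituents over an invariant character have the
same degree. -/
theorem deg_eq_of_coprime_abelian {N : Subgroup X} [Fintype N] (hN : N.Normal)
    (hcop : Nat.Coprime (Nat.card N) N.index) (hab : ∀ a b : X, a * b * a⁻¹ * b⁻¹ ∈ N)
    {θ : N → ℂ} (hθ : IsIrrCharacter N θ) (hinv : ∀ c : X, conjOn hN c θ = θ)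
    {τ : X → ℂ} (hτ : IsIrrCharacter X τ) (hcon : classInner (fun n : N => τ n) θ ≠ 0) :
    τ 1 = θ 1 := by
  classical
  haveI : N.Normal := hN
  obtain ⟨χ, hχ, hext⟩ := Cfsg.Agent.Lib.OddChar.Inertia.exists_ext_of_coprime hN hθ hinv hcop
  have hone : IsIrrCharacter N (fun _ => (1 : ℂ)) := Cfsg.Agent.Lib.Char.Burnside.isIrrCharacter_one
  have h1mul : (fun _ : N => (1 : ℂ)) * θ = θ := by
    funext n
    simp
  have hbij := bijOn_mul_extension hN (φ := fun _ => (1 : ℂ)) (ϑ := θ) hone (fun g => rfl) hinv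
    (by rw [h1mul]; exact hθ) hχ (funext hext)
  rw [h1mul] at hbij
  have hτcf := isClassFunction_of_isIrrCharacter hτ
  have hmem : τ ∈ {ψ : X → ℂ | IsIrrCharacter X ψ ∧ classInner (indFun N θ) ψ ≠ 0} := by
    refine ⟨hτ, ?_⟩
    rw [classInner_indFun_left N θ τ hτcf]
    intro h0
    apply hcon
    rw [← classInner_conj, h0, map_zero]
  obtain ⟨β, ⟨hβ, hβi⟩, hβτ⟩ := hbij.surjOn hmem
  have hβcf := isClassFunction_of_isIrrCharacter hβ
  rw [classInner_indFun_left N _ β hβcf] at hβi
  have hβtriv : ∀ n : N, β n = β 1 := by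
    refine Cfsg.Agent.Lib.BlockT.Inflate.trivial_of_constituent_one hN hβ ?_
    intro h0
    apply hβi
    rw [← classInner_conj, h0, map_zero]
  obtain ⟨φ, hφ, hβφ⟩ := isIrrCharacter_descend (QuotientGroup.mk' N) QuotientGroup.mk_surjective hβ
    (by
      intro k hk
      have hk' : k ∈ N := by simpa using hk
      exact hβtriv ⟨k, hk'⟩)
  have hcomm : ∀ a b : X ⧸ N, a * b = b * a := by
    intro a b
    obtain ⟨a, rfl⟩ := QuotientGroup.mk_surjective a
    obtain ⟨b, rfl⟩ := QuotientGroup.mk_surjective b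
    have := (QuotientGroup.eq_one_iff _).mpr (hab a b)
    rw [QuotientGroup.mk_mul, QuotientGroup.mk_mul, QuotientGroup.mk_mul, QuotientGroup.mk_inv,
      QuotientGroup.mk_inv] at this
    exact mul_inv_eq_one.mp (by simpa [mul_assoc] using this)
  have hφ1 := isIrr_deg_one_of_comm hcomm hφ
  have hβ1 : β 1 = 1 := by
    rw [hβφ]
    simpa using hφ1
  have h2 := hext 1
  have h3 := congrFun hβτ 1
  simp only [Pi.mul_apply] at h3
  rw [← h3, hβ1, one_mul]
  simpa using h2

end Deg

section Numerics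

variable {G : Type u} [Group G] [Fintype G] {M : Ideal AlgInt} {p : ℕ} [hpf : Fact p.Prime]

/-- The index of the centre is invariant under isomorphism. -/
theorem index_center_congr {A B : Type*} [Group A] [Group B] [Finite A] [Finite B] (e : A ≃* B) :
    (Subgroup.center A).index = (Subgroup.center B).index := by
  have h1 := (Subgroup.center A).card_mul_index
  have h2 := (Subgroup.center B).card_mul_index
  have h3 : Nat.card (Subgroup.center A) = Nat.card (Subgroup.center B) :=
    Nat.card_congr (Subgroup.centerCongr e).toEquiv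
  have h4 : Nat.card A = Nat.card B := Nat.card_congr e.toEquiv
  rw [h3, h4, ← h2] at h1
  exact Nat.eq_of_mul_eq_mul_left Nat.card_pos h1

/-- The height bound from the degree bound. -/
theorem height_le_of_core (hM : IsPModular p M) {B : Set (IrrCharacter G)} (hB : IsPBlock M B)
    {D : Subgroup G} (hD : IsDefectGroup p M B D) {χ : IrrCharacter G} (hχ : χ ∈ B)
    (hcore : (charDegree (χ : G → ℂ)).factorization p +
      (Nat.card (Subgroup.center D)).factorization p ≤ (Nat.card G).factorization p) :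
    blockHeight p B (χ : G → ℂ) ≤ ((Subgroup.center D).index).factorization p := by
  have hp := hpf.out
  haveI := Cfsg.Agent.Lib.Char.Ortho.finite_irrCharacter (G := G)
  letI := Fintype.ofFinite (IrrCharacter G)
  have h1 := Cfsg.Agent.Lib.Blocks.Inducing.card_eq_pow_blockDefect hM hB hD
  have h2 := Cfsg.Agent.Lib.Blocks.RegPart2.minExp_add_blockDefect (p := p) hχ
  have h3 : (Nat.card D).factorization p = blockDefect p B := by
    rw [h1, Nat.factorization_pow]
    simp [hp.factorization_self]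
  have h4 := (Subgroup.center D).card_mul_index
  have h5 : (Nat.card (Subgroup.center D)).factorization p + ((Subgroup.center D).index).factorization p
      = (Nat.card D).factorization p := by
    rw [← h4, Nat.factorization_mul Nat.card_pos.ne' (Subgroup.index_ne_zero_of_finite)]
    rfl
  have h6 : blockHeight p B (χ : G → ℂ) =
      (charDegree (χ : G → ℂ)).factorization p - minExp p B := rfl
  rw [h6]
  omega

end Numerics

section Core

variable {G : Type u} [Group G] [Fintype G] {M : Ideal AlgInt} {p : ℕ} [hpf : Fact p.Prime]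

/-- The preimage of a subgroup of `G/N` has the expected order. -/
theorem card_comap_mk (N : Subgroup G) [N.Normal] (L : Subgroup (G ⧸ N)) :
    Nat.card (L.comap (QuotientGroup.mk' N)) = Nat.card N * Nat.card L := by
  have h1 := (L.comap (QuotientGroup.mk' N)).card_mul_index
  have h2 : (L.comap (QuotientGroup.mk' N)).index = L.index :=
    Subgroup.index_comap_of_surjective _ QuotientGroup.mk_surjective
  have h3 := L.card_mul_index
  have h4 := N.card_mul_index
  have h5 : N.index = Nat.card (G ⧸ N) := rfl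
  rw [h2] at h1
  rw [h5, ← h3] at h4
  have h6 : L.index ≠ 0 := Subgroup.index_ne_zero_of_finite
  apply Nat.eq_of_mul_eq_mul_right (Nat.pos_of_ne_zero h6)
  rw [h1, ← h4]
  ring

theorem eq_one_of_mem_coprime {N : Subgroup G} (hc : (Nat.card N).Coprime p) {x : G} (hx : x ∈ N)
    {j : ℕ} (hj : x ^ p ^ j = 1) : x = 1 := by
  have h1 : orderOf x ∣ p ^ j := orderOf_dvd_of_pow_eq_one hj
  have h2 : orderOf x ∣ Nat.card N := by
    have := orderOf_dvd_natCard (⟨x, hx⟩ : N)
    rwa [Subgroup.orderOf_mk] at this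
  have h3 : orderOf x ∣ 1 := by
    have hc' : (Nat.card N).Coprime (p ^ j) := Nat.Coprime.pow_right j hc
    have := Nat.dvd_gcd h2 h1
    rwa [hc'] at this
  exact orderOf_eq_one_iff.mp (Nat.dvd_one.mp h3)

/-- Transport of an invariant character to an intermediate subgroup. -/
theorem transfer_inv {N L : Subgroup G} (hN : N.Normal) (hNL : N ≤ L) {θ : N → ℂ}
    (hinv : ∀ g : G, conjOn hN g θ = θ) (c : L) :
    conjOn (hN.subgroupOf L) c (θ ∘ Subgroup.subgroupOfEquivOfLe hNL) =
      θ ∘ Subgroup.subgroupOfEquivOfLe hNL := by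
  funext n
  have h1 := congrFun (hinv c) (Subgroup.subgroupOfEquivOfLe hNL n)
  rw [conjOn_apply] at h1
  exact (congrArg θ (Subtype.ext rfl)).trans h1

/-- Constituents on an intermediate subgroup. -/
theorem exists_over {N L : Subgroup G} [Fintype N] [Fintype L] [Fintype (N.subgroupOf L)]
    (hNL : N ≤ L) {χ : G → ℂ} (hχ : IsIrrCharacter G χ) {θ : N → ℂ}
    (h : classInner (fun n : N => χ n) θ ≠ 0) :
    ∃ τ : L → ℂ, IsIrrCharacter L τ ∧ classInner (fun l : L => χ l) τ ≠ 0 ∧
      classInner (fun n : N.subgroupOf L => τ n) (θ ∘ Subgroup.subgroupOfEquivOfLe hNL) ≠ 0 := by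
  have hcf : IsClassFunction L (fun l : L => χ l) :=
    isClassFunction_of_isCharacter (isCharacter_restrict L (isCharacter_of_isIrrCharacter hχ))
  have h1 : classInner (fun n : N.subgroupOf L => χ ((n : L) : G))
      (θ ∘ Subgroup.subgroupOfEquivOfLe hNL) ≠ 0 := by
    have h2 : (fun n : N.subgroupOf L => χ ((n : L) : G)) =
        (fun n : N => χ n) ∘ Subgroup.subgroupOfEquivOfLe hNL := by
      funext n
      rfl
    rw [h2, classInner_comp_mulEquiv]
    exact h
  exact Cfsg.Agent.Lib.OddChar.Inertia.exists_constituent_over hcf _ h1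

/-- Restriction to a normal subgroup with an invariant constituent is a multiple of it. -/
theorem restrict_eq_smul {X : Type u} [Group X] [Fintype X] {N : Subgroup X} [Fintype N]
    (hN : N.Normal) {θ : N → ℂ} (hθ : IsIrrCharacter N θ) (hinv : ∀ c : X, conjOn hN c θ = θ)
    {τ : X → ℂ} (hτ : IsIrrCharacter X τ) (hcon : classInner (fun n : N => τ n) θ ≠ 0) (n : N) :
    τ n = classInner (fun n : N => τ n) θ * θ n := by
  classical
  have h1 := Cfsg.Agent.Lib.Char.Clifford.clifford_restrict hN hτ hθ hcon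
  have h2 : Cfsg.Agent.Lib.Char.Clifford.orbitFinset hN θ = {θ} := by
    ext φ
    rw [Cfsg.Agent.Lib.Char.Clifford.mem_orbitFinset, Finset.mem_singleton]
    constructor
    · rintro ⟨g, rfl⟩
      exact hinv g
    · rintro rfl
      exact ⟨1, conjOn_one hN _⟩
  rw [h2, Finset.sum_singleton] at h1
  exact congrFun h1 n

/-- Central characters on a normal subgroup only see the invariant constituent. -/
theorem centralChar_eq_of_restrict {X : Type u} [Group X] [Fintype X] {N : Subgroup X} [Fintype N]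
    (hN : N.Normal) {θ : N → ℂ} (hθ : IsIrrCharacter N θ) (hinv : ∀ c : X, conjOn hN c θ = θ)
    {τ τ' : X → ℂ} (hτ : IsIrrCharacter X τ) (hτ' : IsIrrCharacter X τ')
    (hcon : classInner (fun n : N => τ n) θ ≠ 0) (hcon' : classInner (fun n : N => τ' n) θ ≠ 0)
    (y : N) : centralChar τ y = centralChar τ' y := by
  have h1 := restrict_eq_smul hN hθ hinv hτ hcon y
  have h2 := restrict_eq_smul hN hθ hinv hτ' hcon' y
  have h3 := restrict_eq_smul hN hθ hinv hτ hcon 1
  have h4 := restrict_eq_smul hN hθ hinv hτ' hcon' 1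
  have hθ1 := irr_one_ne_zero hθ
  rw [Subgroup.coe_one] at h3 h4
  rw [centralChar, centralChar, h1, h2, h3, h4]
  field_simp

theorem core_deg {N : Subgroup G} [hNn : N.Normal] [Fintype N] (hc : (Nat.card N).Coprime p)
    (Zb : Subgroup (G ⧸ N)) [hZn : Zb.Normal] (hZp : IsPGroup p Zb)
    (hZc : ∀ a ∈ Zb, ∀ b ∈ Zb, a * b = b * a)
    {θ : N → ℂ} (hθ : IsIrrCharacter N θ) (hinv : ∀ g : G, conjOn hNn g θ = θ)
    {χ : G → ℂ} (hχ : IsIrrCharacter G χ) (hcon : classInner (fun n : N => χ n) θ ≠ 0) :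
    (charDegree χ).factorization p + (Nat.card Zb).factorization p ≤
      (Nat.card G).factorization p := by
  classical
  have hp := hpf.out
  let K : Subgroup G := Zb.comap (QuotientGroup.mk' N)
  haveI hKn : K.Normal := Subgroup.Normal.comap hZn _
  have hNK : N ≤ K := by
    intro n hn
    have : QuotientGroup.mk' N n = 1 := (QuotientGroup.eq_one_iff n).mpr hn
    show QuotientGroup.mk' N n ∈ Zb
    rw [this]
    exact Zb.one_mem
  letI : Fintype K := Fintype.ofFinite _
  letI : Fintype (N.subgroupOf K) := Fintype.ofFinite _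
  obtain ⟨τ, hτ, hτχ, hτθ⟩ := exists_over hNK hχ hcon
  have hθ' := isIrrCharacter_comp_mulEquiv (Subgroup.subgroupOfEquivOfLe hNK) hθ
  have hinv' := transfer_inv hNn hNK hinv
  have hcard : Nat.card K = Nat.card N * Nat.card Zb := card_comap_mk N Zb
  have hN' : Nat.card (N.subgroupOf K) = Nat.card N :=
    Nat.card_congr (Subgroup.subgroupOfEquivOfLe hNK).toEquiv
  have hidx : (N.subgroupOf K).index = Nat.card Zb := by
    have h1 := (N.subgroupOf K).card_mul_index
    rw [hN', hcard] at h1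
    exact Nat.eq_of_mul_eq_mul_left Nat.card_pos h1
  obtain ⟨j, hj⟩ := IsPGroup.iff_card.mp hZp
  have hcop : Nat.Coprime (Nat.card (N.subgroupOf K)) (N.subgroupOf K).index := by
    rw [hN', hidx, hj]
    exact Nat.Coprime.pow_right j hc
  have hab : ∀ a b : K, a * b * a⁻¹ * b⁻¹ ∈ N.subgroupOf K := by
    intro a b
    rw [Subgroup.mem_subgroupOf]
    have h1 := hZc _ a.2 _ b.2
    rw [← QuotientGroup.eq_one_iff]
    push_cast
    have h2 : ((a : G) : G ⧸ N) * ((b : G) : G ⧸ N) = ((b : G) : G ⧸ N) * ((a : G) : G ⧸ N) := h1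
    rw [QuotientGroup.mk_mul, QuotientGroup.mk_mul, QuotientGroup.mk_mul, QuotientGroup.mk_inv,
      QuotientGroup.mk_inv, h2]
    group
  have hdeg := deg_eq_of_coprime_abelian (hNn.subgroupOf K) hcop hab hθ' hinv' hτ hτθ
  obtain ⟨e, t, hχ1, hdvd⟩ := dvd_index_of_constituent hKn hτ hχ hτχ
  have hdegθ : τ 1 = (charDegree θ : ℂ) := by
    rw [hdeg]
    exact (Cfsg.Agent.Lib.Char.Degree.charDegree_natCast (isCharacter_of_isIrrCharacter hθ)).symm
  have hdegχ : charDegree χ = e * t * charDegree θ := by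
    have h1 := Cfsg.Agent.Lib.Char.Degree.charDegree_natCast (isCharacter_of_isIrrCharacter hχ)
    rw [hχ1, hdegθ] at h1
    exact_mod_cast h1
  have hθd : charDegree θ ∣ Nat.card N := charDegree_dvd_card hθ
  have hθp : ¬ p ∣ charDegree θ := by
    intro h
    have := Nat.Coprime.coprime_dvd_left (h.trans hθd) hc
    have h2 := (Nat.coprime_self p).mp this
    exact hp.one_lt.ne' h2
  have hχne : charDegree χ ≠ 0 := (charDegree_pos hχ).ne'
  have hetne : e * t ≠ 0 := by
    intro h0
    rw [hdegχ, h0, zero_mul] at hχne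
    exact hχne rfl
  have hθne : charDegree θ ≠ 0 := (charDegree_pos hθ).ne'
  have h1 : (charDegree χ).factorization p = (e * t).factorization p := by
    rw [hdegχ, Nat.factorization_mul hetne hθne]
    simp [Nat.factorization_eq_zero_of_not_dvd hθp]
  have h2 : (e * t).factorization p ≤ K.index.factorization p :=
    (Nat.factorization_le_iff_dvd hetne Subgroup.index_ne_zero_of_finite).mpr hdvd p
  have h3 : K.index = Zb.index := Subgroup.index_comap_of_surjective _ QuotientGroup.mk_surjective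
  have h4 := Zb.card_mul_index
  have h5 := N.card_mul_index
  have h6 : N.index = Nat.card (G ⧸ N) := rfl
  rw [h6, ← h4] at h5
  have h7 : (Nat.card N).factorization p = 0 := by
    apply Nat.factorization_eq_zero_of_not_dvd
    intro h
    have := Nat.Coprime.coprime_dvd_left h hc
    have h2 := (Nat.coprime_self p).mp this
    exact hp.one_lt.ne' h2
  rw [← h5, Nat.factorization_mul Nat.card_pos.ne'
    (mul_ne_zero Nat.card_pos.ne' Subgroup.index_ne_zero_of_finite),
    Nat.factorization_mul Nat.card_pos.ne' Subgroup.index_ne_zero_of_finite]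
  simp only [Finsupp.coe_add, Pi.add_apply]
  rw [h3] at h2
  omega

theorem core (hM : IsPModular p M) (hsolv : IsPSolvable p G)
    [Fintype (pPrimeCore p G)] {θ : pPrimeCore p G → ℂ} (hθ : IsIrrCharacter _ θ)
    (hinv : ∀ g : G, conjOn (pPrimeCore_normal p G) g θ = θ)
    (χ : IrrCharacter G) (hcon : classInner (fun n : pPrimeCore p G => (χ : G → ℂ) n) θ ≠ 0) :
    ∃ D : Subgroup G, IsDefectGroup p M (blockOf M (χ : G → ℂ)) D ∧
      (charDegree (χ : G → ℂ)).factorization p + (Nat.card (Subgroup.center D)).factorization p ≤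
        (Nat.card G).factorization p := by
  classical
  haveI hMp := isPrime_of_pModular hM
  have hp := hpf.out
  haveI hNn : (pPrimeCore p G).Normal := pPrimeCore_normal p G
  have hc : (Nat.card (pPrimeCore p G)).Coprime p := pPrimeCore_coprime
  haveI hQbn : (pCore p (G ⧸ pPrimeCore p G)).Normal := pCore_normal p _
  have hQbp : IsPGroup p (pCore p (G ⧸ pPrimeCore p G)) := pCore_isPGroup
  let P₁ : Subgroup G := (pCore p (G ⧸ pPrimeCore p G)).comap (QuotientGroup.mk' (pPrimeCore p G))
  haveI hP₁n : P₁.Normal := Subgroup.Normal.comap hQbn _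
  have hNP : pPrimeCore p G ≤ P₁ := by
    intro n hn
    have : QuotientGroup.mk' (pPrimeCore p G) n = 1 := (QuotientGroup.eq_one_iff n).mpr hn
    show QuotientGroup.mk' (pPrimeCore p G) n ∈ pCore p (G ⧸ pPrimeCore p G)
    rw [this]
    exact Subgroup.one_mem _
  letI : Fintype P₁ := Fintype.ofFinite _
  letI : Fintype ((pPrimeCore p G).subgroupOf P₁) := Fintype.ofFinite _
  obtain ⟨τ, hτ, hτχ, hτθ⟩ := exists_over hNP χ.2 hcon
  have hθ' := isIrrCharacter_comp_mulEquiv (Subgroup.subgroupOfEquivOfLe hNP) hθ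
  have hinv' := transfer_inv hNn hNP hinv
  have hcard : Nat.card P₁ = Nat.card (pPrimeCore p G) * Nat.card (pCore p (G ⧸ pPrimeCore p G)) :=
    card_comap_mk _ _
  have hN' : Nat.card ((pPrimeCore p G).subgroupOf P₁) = Nat.card (pPrimeCore p G) :=
    Nat.card_congr (Subgroup.subgroupOfEquivOfLe hNP).toEquiv
  have hidx : ((pPrimeCore p G).subgroupOf P₁).index = Nat.card (pCore p (G ⧸ pPrimeCore p G)) := by
    have h1 := ((pPrimeCore p G).subgroupOf P₁).card_mul_index
    rw [hN', hcard] at h1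
    exact Nat.eq_of_mul_eq_mul_left Nat.card_pos h1
  obtain ⟨j, hj⟩ := IsPGroup.iff_card.mp hQbp
  have hcop : Nat.Coprime (Nat.card ((pPrimeCore p G).subgroupOf P₁))
      ((pPrimeCore p G).subgroupOf P₁).index := by
    rw [hN', hidx, hj]
    exact Nat.Coprime.pow_right j hc
  obtain ⟨θh, hθh, hext⟩ := Cfsg.Agent.Lib.OddChar.Inertia.exists_ext_of_coprime
    (hNn.subgroupOf P₁) hθ' hinv' hcop
  have hconh : classInner (fun n : (pPrimeCore p G).subgroupOf P₁ => θh n)
      (θ ∘ Subgroup.subgroupOfEquivOfLe hNP) ≠ 0 := by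
    have h1 : (fun n : (pPrimeCore p G).subgroupOf P₁ => θh n) =
        θ ∘ Subgroup.subgroupOfEquivOfLe hNP := funext hext
    rw [h1, classInner_irr hθ' hθ', if_pos rfl]
    exact one_ne_zero
  -- regular elements lie in `N`
  have hreg : ∀ y : P₁, ¬ p ∣ orderOf y → (y : G) ∈ pPrimeCore p G := by
    intro y hy
    obtain ⟨i, hi⟩ := hQbp ⟨QuotientGroup.mk' (pPrimeCore p G) (y : G), y.2⟩
    have h1 : (QuotientGroup.mk' (pPrimeCore p G) (y : G)) ^ p ^ i = 1 := by
      have := congrArg Subtype.val hi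
      simpa using this
    have h2 : orderOf (QuotientGroup.mk' (pPrimeCore p G) (y : G)) ∣ p ^ i :=
      orderOf_dvd_of_pow_eq_one h1
    have h3 : orderOf (QuotientGroup.mk' (pPrimeCore p G) (y : G)) ∣ orderOf (y : G) :=
      orderOf_map_dvd _ _
    have h4 : (orderOf (y : G)).Coprime (p ^ i) := by
      apply Nat.Coprime.pow_right
      apply Nat.Coprime.symm
      rw [hp.coprime_iff_not_dvd, Subgroup.orderOf_coe]
      exact hy
    have h5 := Nat.Coprime.coprime_dvd_left h3 h4
    have h6 := Nat.Coprime.eq_one_of_dvd h5 h2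
    have h7 : QuotientGroup.mk' (pPrimeCore p G) (y : G) = 1 := orderOf_eq_one_iff.mp h6
    exact (QuotientGroup.eq_one_iff _).mp h7
  have hsame : SameBlock M τ θh := by
    refine sameBlock_of_regular (χ := ⟨τ, hτ⟩) (ψ := ⟨θh, hθh⟩) hM fun y hy => ?_
    have h1 := centralChar_eq_of_restrict (hNn.subgroupOf P₁) hθ' hinv' hτ hθh hτθ hconh
      ⟨y, Subgroup.mem_subgroupOf.mpr (hreg y hy)⟩
    have h2 : centralChar τ y - centralChar θh y = 0 := sub_eq_zero.mpr h1
    change MemLocalIdeal M (centralChar τ y - centralChar θh y)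
    rw [h2]
    exact memLocalIdeal_zero
  have hb₁ : IsPBlock M (blockOf M τ) := ⟨⟨τ, hτ⟩, rfl⟩
  have hτmem : (⟨τ, hτ⟩ : IrrCharacter P₁) ∈ blockOf M τ := mem_blockOf_self (⟨τ, hτ⟩ : IrrCharacter P₁)
  have hθhmem : (⟨θh, hθh⟩ : IrrCharacter P₁) ∈ blockOf M τ := hsame
  obtain ⟨D₁, hD₁⟩ := Cfsg.Agent.Lib.Blocks.Defect2.exists_isDefectGroup (p := p) hb₁
  have hcD₁ := Cfsg.Agent.Lib.Blocks.Inducing.card_eq_pow_blockDefect hM hb₁ hD₁
  haveI := Cfsg.Agent.Lib.Char.Ortho.finite_irrCharacter (G := P₁)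
  letI := Fintype.ofFinite (IrrCharacter P₁)
  have hmin := Cfsg.Agent.Lib.Blocks.RegPart2.minExp_add_blockDefect (p := p) hθhmem
  have hle0 := minExp_le p hθhmem
  have hθhdeg : (charDegree θh).factorization p = 0 := by
    apply Nat.factorization_eq_zero_of_not_dvd
    intro h
    have h1 : charDegree θh = charDegree θ := by
      have h2 := hext 1
      rw [charDegree, charDegree]
      have h3 : θh 1 = θ 1 := by simpa using h2
      rw [h3]
    rw [h1] at h
    have h4 := Nat.Coprime.coprime_dvd_left (h.trans (charDegree_dvd_card hθ)) hc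
    exact hp.one_lt.ne' ((Nat.coprime_self p).mp h4)
  have hv0 : (Nat.card (pPrimeCore p G)).factorization p = 0 := by
    apply Nat.factorization_eq_zero_of_not_dvd
    intro h
    have := Nat.Coprime.coprime_dvd_left h hc
    exact hp.one_lt.ne' ((Nat.coprime_self p).mp this)
  have hvP : (Nat.card P₁).factorization p = j := by
    rw [hcard, hj, Nat.factorization_mul Nat.card_pos.ne' (pow_ne_zero _ hp.ne_zero),
      Nat.factorization_pow]
    simp only [Finsupp.coe_add, Finsupp.coe_smul, Pi.add_apply, Pi.smul_apply, smul_eq_mul,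
      hp.factorization_self, mul_one, hv0, zero_add]
  have hdef : blockDefect p (blockOf M τ) = j := by
    have h0 : minExp p (blockOf M τ) = 0 := by
      have : minExp p (blockOf M τ) ≤ (charDegree θh).factorization p := hle0
      omega
    omega
  have hcardD₁ : Nat.card D₁ = Nat.card (pCore p (G ⧸ pPrimeCore p G)) := by
    rw [hcD₁, hdef, hj]
  -- Knörr
  let Q : Subgroup G := D₁.map P₁.subtype
  have hQP : Q ≤ P₁ := Subgroup.map_subtype_le _
  have hQ : IsDefectGroup p M (blockOf M τ) (Q.subgroupOf P₁) := by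
    have : Q.subgroupOf P₁ = D₁ :=
      Subgroup.comap_map_eq_self_of_injective (Subgroup.subtype_injective _) D₁
    rwa [this]
  obtain ⟨D, hD, hDP⟩ := Cfsg.Agent.S4438.result p M hM P₁ (blockOf M τ) hb₁ Q hQP hQ
    (blockOf M (χ : G → ℂ)) ⟨χ, rfl⟩ ⟨χ, mem_blockOf_self χ, ⟨τ, hτ⟩, hτmem, hτχ⟩
  refine ⟨D, hD, ?_⟩
  have hpD : IsPGroup p D := Cfsg.Agent.Lib.Blocks.Defect2.isDefectGroup_isPGroup hD
  have hQD : Q ≤ D := by
    rw [← hDP]
    exact inf_le_left
  -- `Q` maps onto `O_p(G/N)`
  have hmap : Q.map (QuotientGroup.mk' (pPrimeCore p G)) = pCore p (G ⧸ pPrimeCore p G) := by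
    apply Subgroup.eq_of_le_of_card_ge
    · rintro _ ⟨x, hx, rfl⟩
      exact hQP hx
    · let f : Q →* G ⧸ pPrimeCore p G := (QuotientGroup.mk' (pPrimeCore p G)).comp Q.subtype
      have hf : Function.Injective f := by
        rw [injective_iff_map_eq_one]
        intro x hx
        have h1 : (x : G) ∈ pPrimeCore p G := (QuotientGroup.eq_one_iff _).mp hx
        obtain ⟨i, hi⟩ := hpD ⟨x, hQD x.2⟩
        have h2 : (x : G) ^ p ^ i = 1 := by
          have := congrArg Subtype.val hi
          simpa using this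
        exact Subtype.ext (eq_one_of_mem_coprime hc h1 h2)
      have h3 : Q.map (QuotientGroup.mk' (pPrimeCore p G)) = f.range := by
        ext y
        constructor
        · rintro ⟨x, hx, rfl⟩
          exact ⟨⟨x, hx⟩, rfl⟩
        · rintro ⟨x, rfl⟩
          exact ⟨x, x.2, rfl⟩
      rw [h3, Nat.card_congr (MonoidHom.ofInjective hf).toEquiv.symm,
        Subgroup.card_map_of_injective (Subgroup.subtype_injective _), hcardD₁]
  -- the centre
  let Zb : Subgroup (G ⧸ pPrimeCore p G) := pCore p (G ⧸ pPrimeCore p G) ⊓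
    Subgroup.centralizer ((pCore p (G ⧸ pPrimeCore p G) : Subgroup _) : Set (G ⧸ pPrimeCore p G))
  haveI hZbn : Zb.Normal := by
    haveI : (Subgroup.centralizer ((pCore p (G ⧸ pPrimeCore p G) : Subgroup _) :
        Set (G ⧸ pPrimeCore p G))).Normal := Subgroup.normal_centralizer
    exact Subgroup.normal_inf_normal _ _
  have hZp : IsPGroup p Zb := hQbp.to_le inf_le_left
  have hZc : ∀ a ∈ Zb, ∀ b ∈ Zb, a * b = b * a := by
    intro a ha b hb
    have := Subgroup.mem_centralizer_iff.mp hb.2 a ha.1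
    exact this
  have hdeg := core_deg hc Zb hZp hZc hθ hinv χ.2 hcon
  -- `Z(D)` embeds in `Zb`
  let g : Subgroup.center D →* G ⧸ pPrimeCore p G :=
    (QuotientGroup.mk' (pPrimeCore p G)).comp (D.subtype.comp (Subgroup.center D).subtype)
  have hg : Function.Injective g := by
    rw [injective_iff_map_eq_one]
    intro x hx
    have h1 : ((x : D) : G) ∈ pPrimeCore p G := (QuotientGroup.eq_one_iff _).mp hx
    obtain ⟨i, hi⟩ := hpD (x : D)
    have h2 : ((x : D) : G) ^ p ^ i = 1 := by
      have := congrArg Subtype.val hi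
      simpa using this
    have h3 := eq_one_of_mem_coprime hc h1 h2
    exact Subtype.ext (Subtype.ext h3)
  have hQbq : IsPSolvable p (G ⧸ pPrimeCore p G) :=
    isPSolvable_of_surjective (QuotientGroup.mk' _) (QuotientGroup.mk'_surjective _) hsolv
  have hHH := centralizer_pCore_le_of_isPSolvable hQbq (pPrimeCore_quotient_eq_bot (p := p) (G := G))
  have hrange : g.range ≤ Zb := by
    rintro _ ⟨x, rfl⟩
    have hcent : g x ∈ Subgroup.centralizer
        ((pCore p (G ⧸ pPrimeCore p G) : Subgroup _) : Set (G ⧸ pPrimeCore p G)) := by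
      rw [Subgroup.mem_centralizer_iff]
      intro u hu
      have hu' : u ∈ Q.map (QuotientGroup.mk' (pPrimeCore p G)) := by rw [hmap]; exact hu
      obtain ⟨q, hq, rfl⟩ := hu'
      have h1 := Subgroup.mem_center_iff.mp x.2 ⟨q, hQD hq⟩
      have h2 : q * ((x : D) : G) = ((x : D) : G) * q := congrArg Subtype.val h1
      show QuotientGroup.mk' (pPrimeCore p G) q * QuotientGroup.mk' (pPrimeCore p G) ((x : D) : G) =
        QuotientGroup.mk' (pPrimeCore p G) ((x : D) : G) * QuotientGroup.mk' (pPrimeCore p G) q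
      rw [← map_mul, ← map_mul, h2]
    exact ⟨hHH hcent, hcent⟩
  have hle : Nat.card (Subgroup.center D) ≤ Nat.card Zb := by
    rw [Nat.card_congr (MonoidHom.ofInjective hg).toEquiv]
    exact Subgroup.card_le_of_le hrange
  obtain ⟨i₁, hi₁⟩ := IsPGroup.iff_card.mp (hpD.to_subgroup (Subgroup.center D))
  obtain ⟨i₂, hi₂⟩ := IsPGroup.iff_card.mp hZp
  rw [hi₁, hi₂] at hle
  have hi : i₁ ≤ i₂ := (Nat.pow_le_pow_iff_right hp.one_lt).mp hle
  rw [hi₂, Nat.factorization_pow] at hdeg
  rw [hi₁, Nat.factorization_pow]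
  simp only [Finsupp.coe_smul, Pi.smul_apply, smul_eq_mul, hp.factorization_self, mul_one] at hdeg ⊢
  omega

theorem index_center_map {A B : Type*} [Group A] [Group B] [Finite A] [Finite B] (f : A →* B)
    (hf : Function.Injective f) (H : Subgroup A) :
    (Subgroup.center (H.map f)).index = (Subgroup.center H).index :=
  (index_center_congr (H.equivMapOfInjective f hf)).symm

/-- Uniqueness of induced blocks. -/
theorem induced_unique (hM : IsPModular p M) {T : Subgroup G} {B' : Set (IrrCharacter T)}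
    {B B₂ : Set (IrrCharacter G)} (hB' : IsPBlock M B') (h1 : IsInducedBlock M T B' B)
    (h2 : IsInducedBlock M T B' B₂) : B = B₂ := by
  haveI hMp := isPrime_of_pModular hM
  letI : Fintype T := Fintype.ofFinite _
  obtain ⟨ξ, hξ⟩ := isPBlock_nonempty hB'
  obtain ⟨χ, hχ⟩ := isPBlock_nonempty h1.2.1
  obtain ⟨χ₂, hχ₂⟩ := isPBlock_nonempty h2.2.1
  have hsame : SameBlock M (χ : G → ℂ) (χ₂ : G → ℂ) := by
    intro g
    have h3 := h1.2.2 ξ hξ χ hχ g
    have h4 := h2.2.2 ξ hξ χ₂ hχ₂ g
    have h5 := memLocalIdeal_sub h4 h3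
    have h6 : centralChar (χ : G → ℂ) g - centralChar (χ₂ : G → ℂ) g =
        (inducedCentralChar T (ξ : T → ℂ) g - centralChar (χ₂ : G → ℂ) g) -
        (inducedCentralChar T (ξ : T → ℂ) g - centralChar (χ : G → ℂ) g) := by ring
    rw [h6]
    exact h5
  rw [isPBlock_eq_blockOf h1.2.1 hχ, isPBlock_eq_blockOf h2.2.1 hχ₂]
  exact (blockOf_eq_of_mem hsame).symm

theorem main_aux (hM : IsPModular p M) : ∀ (n : ℕ) (G : Type u) [Group G] [Fintype G],
    Nat.card G = n → IsPSolvable p G →
    ∀ (B : Set (IrrCharacter G)), IsPBlock M B → ∀ D : Subgroup G, IsDefectGroup p M B D →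
    ∀ χ ∈ B, blockHeight p B (χ : G → ℂ) ≤ ((Subgroup.center D).index).factorization p := by
  intro n
  induction n using Nat.strong_induction_on with
  | _ n ih =>
  intro G _ _ hn hsolv B hB D hD χ hχ
  classical
  haveI hMp := isPrime_of_pModular hM
  have hp := hpf.out
  haveI hNn : (pPrimeCore p G).Normal := pPrimeCore_normal p G
  letI : Fintype (pPrimeCore p G) := Fintype.ofFinite _
  have hc : (Nat.card (pPrimeCore p G)).Coprime p := pPrimeCore_coprime
  obtain ⟨θ, hθ⟩ := Cfsg.Agent.Lib.BlockT.NormalP.exists_constituent (N := pPrimeCore p G) χ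
  have hBχ : B = blockOf M (χ : G → ℂ) := isPBlock_eq_blockOf hB hχ
  by_cases hinv : ∀ g : G, conjOn hNn g (θ : pPrimeCore p G → ℂ) = θ
  · obtain ⟨D₀, hD₀, hcore⟩ := core (M := M) hM hsolv θ.2 hinv χ hθ
    rw [← hBχ] at hD₀
    have h := height_le_of_core hM hB hD₀ hχ hcore
    obtain ⟨x, rfl⟩ := Cfsg.Agent.Lib.Blocks.Defect2.isDefectGroup_exists_conj_eq hM hB hD₀ hD
    rwa [index_center_map _ (MulEquiv.injective _)]
  · let T : Subgroup G := inertia hNn (θ : pPrimeCore p G → ℂ)
    have hTne : T ≠ ⊤ := by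
      intro h
      apply hinv
      intro g
      have : g ∈ T := by rw [h]; trivial
      exact this
    letI : Fintype T := Fintype.ofFinite _
    haveI := Cfsg.Agent.Lib.Char.Ortho.finite_irrCharacter (G := pPrimeCore p G)
    letI := Fintype.ofFinite (IrrCharacter (pPrimeCore p G))
    have hsingle : blockOf M (θ : pPrimeCore p G → ℂ) = {θ} := by
      apply (Cfsg.Agent.Lib.Blocks.Inducing.blockOf_eq_singleton_iff hM θ).mp
      intro h
      have h1 : Nat.card (pPrimeCore p G) / charDegree (θ : pPrimeCore p G → ℂ) ∣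
          Nat.card (pPrimeCore p G) := Nat.div_dvd_of_dvd (charDegree_dvd_card θ.2)
      have h2 := Nat.Coprime.coprime_dvd_left (h.trans h1) hc
      exact hp.one_lt.ne' ((Nat.coprime_self p).mp h2)
    have hb : IsPBlock M ({θ} : Set (IrrCharacter (pPrimeCore p G))) := ⟨θ, hsingle.symm⟩
    have hT : ∀ g : G, g ∈ T ↔ ∀ θ₀ ∈ ({θ} : Set (IrrCharacter (pPrimeCore p G))),
        ∀ θ' : IrrCharacter (pPrimeCore p G),
        (∀ n : pPrimeCore p G, (θ' : pPrimeCore p G → ℂ) n =
          (θ₀ : pPrimeCore p G → ℂ) ⟨g * n * g⁻¹, hNn.conj_mem n n.2 g⟩) →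
        θ' ∈ ({θ} : Set (IrrCharacter (pPrimeCore p G))) := by
      intro g
      constructor
      · rintro hg θ₀ rfl θ' h
        refine Set.mem_singleton_iff.mpr (Subtype.ext (funext fun n => ?_))
        rw [h n]
        exact congrFun hg n
      · intro h
        have h1 := h θ rfl ⟨conjOn hNn g (θ : pPrimeCore p G → ℂ),
          isIrrCharacter_conjOn hNn g θ.2⟩ (fun n => rfl)
        have h2 := Set.mem_singleton_iff.mp h1
        exact congrArg Subtype.val h2
    have hNT : pPrimeCore p G ≤ T := le_inertia hNn (isClassFunction_of_isIrrCharacter θ.2)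
    obtain ⟨h1, -, h3⟩ := Cfsg.Agent.S4435.result p M hM (pPrimeCore p G) {θ} hb T hT hNT
    obtain ⟨B', hB', hcov', hind⟩ := h3 B hB ⟨χ, hχ, θ, rfl, hθ⟩
    obtain ⟨B₂, hind₂, -, -, hiff⟩ := h1 B' hB' hcov'
    have hB₂ : B = B₂ := induced_unique hM hB' hind hind₂
    obtain ⟨ψ, hψ, hχψ⟩ := (hiff χ).mp (hB₂ ▸ hχ)
    obtain ⟨hdefect, hheight⟩ := Cfsg.Agent.S4436.result p M hM (pPrimeCore p G) {θ} hb T hT hNT
      B' hB' hcov' B hind
    obtain ⟨χ', -, hχ'eq, hh⟩ := hheight ψ hψ
    have hχχ' : (χ : G → ℂ) = χ' := by rw [hχψ, hχ'eq]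
    obtain ⟨D', hD'⟩ := Cfsg.Agent.Lib.Blocks.Defect2.exists_isDefectGroup (p := p) hB'
    have hlt : Nat.card T < n := by
      rw [← hn]
      have h4 := T.card_mul_index
      have h5 : T.index ≠ 1 := fun h => hTne (Subgroup.index_eq_one.mp h)
      have h6 : T.index ≠ 0 := Subgroup.index_ne_zero_of_finite
      have h7 : 2 ≤ T.index := by omega
      have h8 : 0 < Nat.card T := Nat.card_pos
      rw [← h4]
      nlinarith
    have hih := ih (Nat.card T) hlt T rfl (isPSolvable_subgroup T hsolv) B' hB' D' hD' ψ hψ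
    have hdef := hdefect D' hD'
    obtain ⟨x, rfl⟩ := Cfsg.Agent.Lib.Blocks.Defect2.isDefectGroup_exists_conj_eq hM hB hdef hD
    rw [index_center_map _ (MulEquiv.injective _), index_center_map _ (Subgroup.subtype_injective _),
      hχχ', hh]
    exact hih

end Core

end Cfsg.Agent.Lib.BlockP.PSolvHeight
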