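import Mathlib
import Cfsg.Agent.Lib.Blocks.Central
import Cfsg.Agent.Lib.BlockT.Inflate2
import Cfsg.Agent.Lib.Char.Product
import Cfsg.Agent.Lib.Char.Linear
import Cfsg.Agent.Lib.Char.Burnside
import Cfsg.Agent.Lib.Transfer.Basic

/-!
# Principal blocks of a central product

`G = U₁ U₂` with `U₁`, `U₂` commuting and `U₁ ∩ U₂` a `p`-group.
-/

set_option autoImplicit false

namespace Cfsg.Agent.Lib.BlockP.CentralProd

open Cfsg Subgroup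
open Cfsg.Agent.Lib.Char.Basic Cfsg.Agent.Lib.Char.Ortho Cfsg.Agent.Lib.Char.Product
open Cfsg.Agent.Lib.Char.Degree Cfsg.Agent.Lib.Blocks.Central Cfsg.Agent.Lib.Blocks.Local

variable {G : Type*} [Group G] (U₁ U₂ : Subgroup G)

/-- The multiplication map. -/
def mulHom (hcomm : ∀ u ∈ U₁, ∀ v ∈ U₂, u * v = v * u) : U₁ × U₂ →* G :=
  MonoidHom.noncommCoprod U₁.subtype U₂.subtype (fun a b => hcomm a a.2 b b.2)

@[simp] theorem mulHom_apply (hcomm : ∀ u ∈ U₁, ∀ v ∈ U₂, u * v = v * u) (x : U₁ × U₂) :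
    mulHom U₁ U₂ hcomm x = (x.1 : G) * x.2 := rfl

theorem mulHom_surjective (hcomm : ∀ u ∈ U₁, ∀ v ∈ U₂, u * v = v * u) (hgen : U₁ ⊔ U₂ = ⊤) :
    Function.Surjective (mulHom U₁ U₂ hcomm) := by
  rw [← MonoidHom.range_eq_top, eq_top_iff, ← hgen]
  refine sup_le ?_ ?_
  · intro u hu
    exact ⟨(⟨u, hu⟩, 1), by simp⟩
  · intro v hv
    exact ⟨(1, ⟨v, hv⟩), by simp⟩

variable {U₁ U₂} {p : ℕ}

theorem eq_one_of_conj_eq_mul [Finite G] {b x : G} (hb : ¬ p ∣ orderOf b) (hp : p.Prime)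
    (hxb : Commute b x) {k : ℕ} (hx : x ^ p ^ k = 1) (hc : IsConj b (b * x)) : x = 1 := by
  have h1 : orderOf (b * x) = orderOf b := by
    obtain ⟨c, hc'⟩ := isConj_iff.1 hc
    rw [← hc']
    have : c * b * c⁻¹ = MulAut.conj c b := by simp [MulAut.conj_apply]
    rw [this]
    exact orderOf_injective (MulAut.conj c).toMonoidHom (MulAut.conj c).injective b
  obtain ⟨j, -, hj⟩ := (Nat.dvd_prime_pow hp).1 (orderOf_dvd_of_pow_eq_one hx)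
  have hcop : Nat.Coprime (orderOf b) (orderOf x) := by
    rw [hj]
    exact Nat.Coprime.pow_right _ ((hp.coprime_iff_not_dvd).2 hb).symm
  have h2 := hxb.orderOf_mul_eq_mul_orderOf_of_coprime hcop
  rw [h1] at h2
  have h3 : orderOf b * orderOf x = orderOf b * 1 := by rw [← h2, mul_one]
  have h4 := Nat.eq_of_mul_eq_mul_left (orderOf_pos b) h3
  exact orderOf_eq_one_iff.1 h4

/-- The centralizer of a `p`-regular product. -/
theorem comap_centralizer [Finite G] (hcomm : ∀ u ∈ U₁, ∀ v ∈ U₂, u * v = v * u) (hp : p.Prime)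
    (hZ : IsPGroup p ↥(U₁ ⊓ U₂)) (b₁ : U₁) (b₂ : U₂) (h₁ : ¬ p ∣ orderOf b₁) (h₂ : ¬ p ∣ orderOf b₂) :
    (centralizer ({(b₁ : G) * b₂} : Set G)).comap (mulHom U₁ U₂ hcomm) =
      (centralizer ({b₁} : Set U₁)).prod (centralizer ({b₂} : Set U₂)) := by
  ext ⟨u₁, u₂⟩
  rw [Subgroup.mem_comap, Subgroup.mem_prod, mem_centralizer_singleton_iff, mem_centralizer_singleton_iff,
    mem_centralizer_singleton_iff]
  simp only [mulHom_apply]
  have h1' : ¬ p ∣ orderOf (b₁ : G) := by rwa [Subgroup.orderOf_coe]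
  have h2' : ¬ p ∣ orderOf (b₂ : G) := by rwa [Subgroup.orderOf_coe]
  have hc₁₂ : ∀ a : U₁, ∀ b : U₂, (a : G) * b = b * a := fun a b => hcomm a a.2 b b.2
  constructor
  · intro h
    set x : G := (b₁ : G)⁻¹ * (u₁ * b₁ * (u₁ : G)⁻¹) with hx
    set y : G := (u₂ * b₂ * (u₂ : G)⁻¹) * (b₂ : G)⁻¹ with hy
    have hxU : x ∈ U₁ := mul_mem (inv_mem b₁.2) (mul_mem (mul_mem u₁.2 b₁.2) (inv_mem u₁.2))
    have hyU : y ∈ U₂ := mul_mem (mul_mem (mul_mem u₂.2 b₂.2) (inv_mem u₂.2)) (inv_mem b₂.2)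
    have hxy : x * y = 1 := by
      have h3 : (u₁ : G) * b₁ * (u₁ : G)⁻¹ * ((u₂ : G) * b₂ * (u₂ : G)⁻¹) = (b₁ : G) * b₂ := by
        calc (u₁ : G) * b₁ * (u₁ : G)⁻¹ * ((u₂ : G) * b₂ * (u₂ : G)⁻¹)
            = (u₁ : G) * (b₁ * ((u₁ : G)⁻¹ * u₂)) * b₂ * (u₂ : G)⁻¹ := by group
          _ = (u₁ : G) * (b₁ * ((u₂ : G) * (u₁ : G)⁻¹)) * b₂ * (u₂ : G)⁻¹ := by
              congr 3
              have := hcomm (u₁ : G)⁻¹ (inv_mem u₁.2) u₂ u₂.2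
              rw [this]
          _ = (u₁ : G) * ((b₁ * u₂) * (u₁ : G)⁻¹) * b₂ * (u₂ : G)⁻¹ := by group
          _ = (u₁ : G) * (((u₂ : G) * b₁) * (u₁ : G)⁻¹) * b₂ * (u₂ : G)⁻¹ := by rw [hc₁₂ b₁ u₂]
          _ = ((u₁ : G) * u₂) * ((b₁ : G) * ((u₁ : G)⁻¹ * b₂)) * (u₂ : G)⁻¹ := by group
          _ = ((u₁ : G) * u₂) * ((b₁ : G) * ((b₂ : G) * (u₁ : G)⁻¹)) * (u₂ : G)⁻¹ := by
              congr 3
              exact hcomm (u₁ : G)⁻¹ (inv_mem u₁.2) b₂ b₂.2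
          _ = ((u₁ : G) * u₂) * ((b₁ : G) * b₂) * ((u₁ : G)⁻¹ * (u₂ : G)⁻¹) := by group
          _ = ((b₁ : G) * b₂) * ((u₁ : G) * u₂) * ((u₁ : G)⁻¹ * (u₂ : G)⁻¹) := by rw [h]
          _ = (b₁ : G) * b₂ * ((u₁ : G) * ((u₂ : G) * (u₁ : G)⁻¹) * (u₂ : G)⁻¹) := by group
          _ = (b₁ : G) * b₂ * ((u₁ : G) * ((u₁ : G)⁻¹ * (u₂ : G)) * (u₂ : G)⁻¹) := by
              congr 3
              exact (hcomm (u₁ : G)⁻¹ (inv_mem u₁.2) u₂ u₂.2).symm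
          _ = (b₁ : G) * b₂ := by group
      calc x * y = (b₁ : G)⁻¹ * ((u₁ : G) * b₁ * (u₁ : G)⁻¹ * ((u₂ : G) * b₂ * (u₂ : G)⁻¹)) * (b₂ : G)⁻¹ := by
            rw [hx, hy]; group
        _ = 1 := by rw [h3]; group
    have hxy2 : x = y⁻¹ := eq_inv_of_mul_eq_one_left hxy
    have hxU2 : x ∈ U₂ := by rw [hxy2]; exact inv_mem hyU
    have hxZ : x ∈ U₁ ⊓ U₂ := Subgroup.mem_inf.2 ⟨hxU, hxU2⟩
    obtain ⟨k, hk⟩ := hZ ⟨x, hxZ⟩
    have hk' : x ^ p ^ k = 1 := by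
      have := congrArg Subtype.val hk
      simpa using this
    have hcomm1 : Commute (b₁ : G) x := hcomm b₁ b₁.2 x hxU2
    have hconj1 : IsConj (b₁ : G) ((b₁ : G) * x) := by
      rw [isConj_iff]
      refine ⟨u₁, ?_⟩
      rw [hx]; group
    have hx1 : x = 1 := eq_one_of_conj_eq_mul h1' hp hcomm1 hk' hconj1
    have hy1 : y = 1 := by
      rw [hxy2, inv_eq_one] at hx1
      exact hx1
    constructor
    · apply Subtype.ext
      show (u₁ : G) * b₁ = b₁ * u₁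
      have h5 : (u₁ : G) * b₁ * (u₁ : G)⁻¹ = b₁ := by
        rw [hx, inv_mul_eq_one] at hx1
        exact hx1.symm
      calc (u₁ : G) * b₁ = (u₁ : G) * b₁ * (u₁ : G)⁻¹ * u₁ := by group
        _ = b₁ * u₁ := by rw [h5]
    · apply Subtype.ext
      show (u₂ : G) * b₂ = b₂ * u₂
      have h5 : (u₂ : G) * b₂ * (u₂ : G)⁻¹ = b₂ := by
        rw [hy, mul_inv_eq_one] at hy1
        exact hy1
      calc (u₂ : G) * b₂ = (u₂ : G) * b₂ * (u₂ : G)⁻¹ * u₂ := by group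
        _ = b₂ * u₂ := by rw [h5]
  · rintro ⟨h1, h2⟩
    have h3 : (u₁ : G) * b₁ = b₁ * u₁ := congrArg Subtype.val h1
    have h4 : (u₂ : G) * b₂ = b₂ * u₂ := congrArg Subtype.val h2
    calc (u₁ : G) * u₂ * (b₁ * b₂) = (u₁ : G) * ((u₂ : G) * b₁) * b₂ := by group
      _ = (u₁ : G) * ((b₁ : G) * u₂) * b₂ := by rw [hc₁₂ b₁ u₂]
      _ = ((u₁ : G) * b₁) * ((u₂ : G) * b₂) := by group
      _ = ((b₁ : G) * u₁) * ((b₂ : G) * u₂) := by rw [h3, h4]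
      _ = (b₁ : G) * ((u₁ : G) * b₂) * u₂ := by group
      _ = (b₁ : G) * ((b₂ : G) * u₁) * u₂ := by rw [hc₁₂ u₁ b₂]
      _ = (b₁ : G) * b₂ * (u₁ * u₂) := by group

theorem index_centralizer [Finite G] (hcomm : ∀ u ∈ U₁, ∀ v ∈ U₂, u * v = v * u) (hgen : U₁ ⊔ U₂ = ⊤)
    (hp : p.Prime) (hZ : IsPGroup p ↥(U₁ ⊓ U₂)) (b₁ : U₁) (b₂ : U₂) (h₁ : ¬ p ∣ orderOf b₁)
    (h₂ : ¬ p ∣ orderOf b₂) :
    (centralizer ({(b₁ : G) * b₂} : Set G)).index =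
      (centralizer ({b₁} : Set U₁)).index * (centralizer ({b₂} : Set U₂)).index := by
  rw [← Subgroup.index_prod, ← comap_centralizer hcomm hp hZ b₁ b₂ h₁ h₂,
    Subgroup.index_comap_of_surjective _ (mulHom_surjective U₁ U₂ hcomm hgen)]

/-- The character formula. -/
theorem character_mul [Finite G] (hcomm : ∀ u ∈ U₁, ∀ v ∈ U₂, u * v = v * u) (hgen : U₁ ⊔ U₂ = ⊤)
    [Fintype U₁] [Fintype U₂] (χ : IrrCharacter G) (ψ₁ : IrrCharacter U₁) (ψ₂ : IrrCharacter U₂)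
    (h₁ : classInner (fun u : U₁ => (χ : G → ℂ) u) (ψ₁ : U₁ → ℂ) ≠ 0)
    (h₂ : classInner (fun u : U₂ => (χ : G → ℂ) u) (ψ₂ : U₂ → ℂ) ≠ 0) (u₁ : U₁) (u₂ : U₂) :
    (χ : G → ℂ) ((u₁ : G) * u₂) = (ψ₁ : U₁ → ℂ) u₁ * (ψ₂ : U₂ → ℂ) u₂ := by
  have hirr := Cfsg.Agent.Lib.Char.Linear.isIrrCharacter_comp (mulHom U₁ U₂ hcomm)
    (mulHom_surjective U₁ U₂ hcomm hgen) χ.2
  obtain ⟨φ₁, φ₂, hφ₁, hφ₂, hθ⟩ := (isIrr_prod_iff _).1 hirr
  have hval : ∀ (a : U₁) (b : U₂), (χ : G → ℂ) ((a : G) * b) = φ₁ a * φ₂ b := fun a b =>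
    congrFun hθ (a, b)
  have hres₁ : (fun u : U₁ => (χ : G → ℂ) u) = φ₂ 1 • φ₁ := by
    funext u
    have := hval u 1
    simp only [OneMemClass.coe_one, mul_one] at this
    rw [this]
    simp [mul_comm]
  have hres₂ : (fun u : U₂ => (χ : G → ℂ) u) = φ₁ 1 • φ₂ := by
    funext u
    have := hval 1 u
    simp only [OneMemClass.coe_one, one_mul] at this
    rw [this]
    simp
  have he₁ : φ₁ = (ψ₁ : U₁ → ℂ) := by
    by_contra hne
    apply h₁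
    rw [hres₁, classInner_smul_left, classInner_eq_zero_of_isIrr_of_ne hφ₁ ψ₁.2 hne, mul_zero]
  have he₂ : φ₂ = (ψ₂ : U₂ → ℂ) := by
    by_contra hne
    apply h₂
    rw [hres₂, classInner_smul_left, classInner_eq_zero_of_isIrr_of_ne hφ₂ ψ₂.2 hne, mul_zero]
  rw [hval, he₁, he₂]

/-- A `p`-regular element is a product of `p`-regular elements of the factors. -/
theorem exists_regular_decomp [Finite G] [Fact p.Prime] (hcomm : ∀ u ∈ U₁, ∀ v ∈ U₂, u * v = v * u)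
    (hgen : U₁ ⊔ U₂ = ⊤) {g : G} (hg : ¬ p ∣ orderOf g) :
    ∃ (b₁ : U₁) (b₂ : U₂), g = (b₁ : G) * b₂ ∧ ¬ p ∣ orderOf b₁ ∧ ¬ p ∣ orderOf b₂ := by
  have hp : p.Prime := Fact.out
  obtain ⟨⟨u₁, u₂⟩, rfl⟩ := mulHom_surjective U₁ U₂ hcomm hgen g
  obtain ⟨a₁, b₁, rfl, hab₁, -, -, ⟨k₁, hk₁⟩, hb₁⟩ :=
    Cfsg.Agent.Lib.Transfer.Basic.exists_pPart_decomp (p := p) u₁
  obtain ⟨a₂, b₂, rfl, hab₂, -, -, ⟨k₂, hk₂⟩, hb₂⟩ :=
    Cfsg.Agent.Lib.Transfer.Basic.exists_pPart_decomp (p := p) u₂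
  have hb₁' : ¬ p ∣ orderOf b₁ := (hp.coprime_iff_not_dvd).1 hb₁.symm
  have hb₂' : ¬ p ∣ orderOf b₂ := (hp.coprime_iff_not_dvd).1 hb₂.symm
  have hc₁₂ : ∀ (x : U₁) (y : U₂), Commute (x : G) (y : G) := fun x y => hcomm x x.2 y y.2
  -- the `p`-part and the `p'`-part
  set a : G := (a₁ : G) * a₂ with ha
  set b : G := (b₁ : G) * b₂ with hb
  have hgab : ((a₁ * b₁ : U₁) : G) * ((a₂ * b₂ : U₂) : G) = a * b := by
    have := (hc₁₂ b₁ a₂).eq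
    simp only [Subgroup.coe_mul, ha, hb]
    calc (a₁ : G) * b₁ * (a₂ * b₂) = (a₁ : G) * ((b₁ : G) * a₂) * b₂ := by group
      _ = (a₁ : G) * ((a₂ : G) * b₁) * b₂ := by rw [this]
      _ = (a₁ : G) * a₂ * (b₁ * b₂) := by group
  have hab : Commute a b := by
    have h1 : Commute (a₁ : G) (b₁ : G) := by
      have := congrArg Subtype.val hab₁.eq
      exact this
    have h2 : Commute (a₂ : G) (b₂ : G) := by
      have := congrArg Subtype.val hab₂.eq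
      exact this
    exact Commute.mul_left (Commute.mul_right h1 (hc₁₂ a₁ b₂))
      (Commute.mul_right (hc₁₂ b₁ a₂).symm h2)
  have hapow : a ^ p ^ (k₁ + k₂) = 1 := by
    have h1 : (a₁ : G) ^ p ^ k₁ = 1 := by
      have := congrArg Subtype.val hk₁
      simpa using this
    have h2 : (a₂ : G) ^ p ^ k₂ = 1 := by
      have := congrArg Subtype.val hk₂
      simpa using this
    rw [ha, (hc₁₂ a₁ a₂).mul_pow, pow_add, pow_mul, h1, one_pow, one_mul, mul_comm, pow_mul, h2,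
      one_pow]
  have hbreg : ¬ p ∣ orderOf b := by
    intro h
    have h1 := (hc₁₂ b₁ b₂).orderOf_mul_dvd_mul_orderOf
    rcases (hp.dvd_mul).1 (h.trans h1) with h2 | h2
    · rw [Subgroup.orderOf_coe] at h2; exact hb₁' h2
    · rw [Subgroup.orderOf_coe] at h2; exact hb₂' h2
  have hgreg : ¬ p ∣ orderOf (a * b) := by
    rw [← hgab]
    exact hg
  have ha1 : a = 1 := by
    by_contra hne
    apply hgreg
    have := Cfsg.Agent.Lib.BlockT.Inflate2.dvd_orderOf_mul hp hab hapow hne hbreg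
    exact this
  refine ⟨b₁, b₂, ?_, hb₁', hb₂'⟩
  show ((a₁ * b₁ : U₁) : G) * ((a₂ * b₂ : U₂) : G) = _
  rw [hgab, ha1, one_mul]

/-- The central character of a product. -/
theorem centralChar_mul [Finite G] (hcomm : ∀ u ∈ U₁, ∀ v ∈ U₂, u * v = v * u) (hgen : U₁ ⊔ U₂ = ⊤)
    (hp : p.Prime) (hZ : IsPGroup p ↥(U₁ ⊓ U₂)) [Fintype U₁] [Fintype U₂] (χ : IrrCharacter G)
    (ψ₁ : IrrCharacter U₁) (ψ₂ : IrrCharacter U₂)
    (h₁ : classInner (fun u : U₁ => (χ : G → ℂ) u) (ψ₁ : U₁ → ℂ) ≠ 0)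
    (h₂ : classInner (fun u : U₂ => (χ : G → ℂ) u) (ψ₂ : U₂ → ℂ) ≠ 0) (b₁ : U₁) (b₂ : U₂)
    (hb₁ : ¬ p ∣ orderOf b₁) (hb₂ : ¬ p ∣ orderOf b₂) :
    centralChar (χ : G → ℂ) ((b₁ : G) * b₂) =
      centralChar (ψ₁ : U₁ → ℂ) b₁ * centralChar (ψ₂ : U₂ → ℂ) b₂ := by
  unfold centralChar
  have h1 := character_mul hcomm hgen χ ψ₁ ψ₂ h₁ h₂ b₁ b₂
  have h2 := character_mul hcomm hgen χ ψ₁ ψ₂ h₁ h₂ 1 1
  simp only [OneMemClass.coe_one, mul_one] at h2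
  rw [h1, h2, index_centralizer hcomm hgen hp hZ b₁ b₂ hb₁ hb₂]
  push_cast
  rw [mul_div_mul_comm]
  ring

omit [Group G] in
theorem centralChar_triv {X : Type*} [Group X] (g : X) :
    centralChar (fun _ : X => (1 : ℂ)) g = ((centralizer ({g} : Set X)).index : ℂ) := by
  simp [centralChar]

omit [Group G] in
theorem centralChar_one {X : Type*} [Group X] [Finite X] (ψ : IrrCharacter X) :
    centralChar (ψ : X → ℂ) 1 = 1 := by
  have h0 : (ψ : X → ℂ) 1 ≠ 0 := by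
    rw [← charDegree_natCast (isCharacter_of_isIrrCharacter ψ.2)]
    exact Nat.cast_ne_zero.2 (charDegree_pos ψ.2).ne'
  have : centralizer ({(1 : X)} : Set X) = ⊤ := by
    ext x
    simp [Subgroup.mem_centralizer_singleton_iff]
  simp [centralChar, this, h0]

/-- The principal block of a central product. -/
theorem mem_principal_iff [Fintype G] [Fact p.Prime] {M : Ideal AlgInt} (hM : IsPModular p M)
    [Fintype U₁] [Fintype U₂] (hcomm : ∀ u ∈ U₁, ∀ v ∈ U₂, u * v = v * u) (hgen : U₁ ⊔ U₂ = ⊤)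
    (hZ : IsPGroup p ↥(U₁ ⊓ U₂)) (χ : IrrCharacter G) (ψ₁ : IrrCharacter U₁) (ψ₂ : IrrCharacter U₂)
    (h₁ : classInner (fun u : U₁ => (χ : G → ℂ) u) (ψ₁ : U₁ → ℂ) ≠ 0)
    (h₂ : classInner (fun u : U₂ => (χ : G → ℂ) u) (ψ₂ : U₂ → ℂ) ≠ 0) :
    χ ∈ principalBlock M G ↔ (ψ₁ ∈ principalBlock M U₁ ∧ ψ₂ ∈ principalBlock M U₂) := by
  classical
  have hp : p.Prime := Fact.out
  haveI := isPrime_of_pModular hM
  have hone₁ : ¬ p ∣ orderOf (1 : U₁) := by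
    rw [orderOf_one]; exact hp.one_lt.ne' ∘ Nat.dvd_one.1
  have hone₂ : ¬ p ∣ orderOf (1 : U₂) := by
    rw [orderOf_one]; exact hp.one_lt.ne' ∘ Nat.dvd_one.1
  have hcc := centralChar_mul hcomm hgen hp hZ χ ψ₁ ψ₂ h₁ h₂
  have hidx := index_centralizer hcomm hgen hp hZ
  have hcentr₁ : centralizer ({(1 : U₁)} : Set U₁) = ⊤ := by
    ext x
    simp [Subgroup.mem_centralizer_singleton_iff]
  have hcentr₂ : centralizer ({(1 : U₂)} : Set U₂) = ⊤ := by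
    ext x
    simp [Subgroup.mem_centralizer_singleton_iff]
  constructor
  · intro hχ
    have hχ' : SameBlock M (fun _ : G => (1 : ℂ)) (χ : G → ℂ) := hχ
    constructor
    · refine Cfsg.Agent.Lib.BlockT.Inflate2.sameBlock_of_regular hM
        (χ := ⟨fun _ => 1, Cfsg.Agent.Lib.Char.Burnside.isIrrCharacter_one⟩) (ψ := ψ₁) fun b hb => ?_
      have h3 := hχ' ((b : G) * ((1 : U₂) : G))
      rw [hcc b 1 hb hone₂, centralChar_one, mul_one, centralChar_triv, hidx b 1 hb hone₂, hcentr₂,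
        Subgroup.index_top, mul_one] at h3
      show MemLocalIdeal M (centralChar (fun _ : U₁ => (1 : ℂ)) b - _)
      rw [centralChar_triv]
      exact h3
    · refine Cfsg.Agent.Lib.BlockT.Inflate2.sameBlock_of_regular hM
        (χ := ⟨fun _ => 1, Cfsg.Agent.Lib.Char.Burnside.isIrrCharacter_one⟩) (ψ := ψ₂) fun b hb => ?_
      have h3 := hχ' (((1 : U₁) : G) * (b : G))
      rw [hcc 1 b hone₁ hb, centralChar_one, one_mul, centralChar_triv, hidx 1 b hone₁ hb, hcentr₁,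
        Subgroup.index_top, one_mul] at h3
      show MemLocalIdeal M (centralChar (fun _ : U₂ => (1 : ℂ)) b - _)
      rw [centralChar_triv]
      exact h3
  · rintro ⟨hψ₁, hψ₂⟩
    have hψ₁' : SameBlock M (fun _ : U₁ => (1 : ℂ)) (ψ₁ : U₁ → ℂ) := hψ₁
    have hψ₂' : SameBlock M (fun _ : U₂ => (1 : ℂ)) (ψ₂ : U₂ → ℂ) := hψ₂
    refine Cfsg.Agent.Lib.BlockT.Inflate2.sameBlock_of_regular hM
      (χ := ⟨fun _ => 1, Cfsg.Agent.Lib.Char.Burnside.isIrrCharacter_one⟩) (ψ := χ) fun g hg => ?_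
    obtain ⟨b₁, b₂, rfl, hb₁, hb₂⟩ := exists_regular_decomp hcomm hgen hg
    show MemLocalIdeal M (centralChar (fun _ : G => (1 : ℂ)) _ - _)
    rw [hcc b₁ b₂ hb₁ hb₂, centralChar_triv, hidx b₁ b₂ hb₁ hb₂]
    have h3 := hψ₁' b₁
    have h4 := hψ₂' b₂
    rw [centralChar_triv] at h3 h4
    set i₁ := (centralizer ({b₁} : Set U₁)).index
    set i₂ := (centralizer ({b₂} : Set U₂)).index
    have h5 : ((i₁ * i₂ : ℕ) : ℂ) - centralChar (ψ₁ : U₁ → ℂ) b₁ * centralChar (ψ₂ : U₂ → ℂ) b₂ =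
        ((i₁ : ℂ) - centralChar (ψ₁ : U₁ → ℂ) b₁) * (i₂ : ℂ) +
          centralChar (ψ₁ : U₁ → ℂ) b₁ * ((i₂ : ℂ) - centralChar (ψ₂ : U₂ → ℂ) b₂) := by
      push_cast; ring
    rw [h5]
    refine memLocalIdeal_add (memLocalIdeal_mul_right h3 (memLocalRing_natCast _))
      (memLocalIdeal_mul_left (memLocalRing_of_isIntegral (isIntegral_centralChar ψ₁ b₁)) h4)

end Cfsg.Agent.Lib.BlockP.CentralProd
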